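import Cfsg.Agent.Ree.Inst
/-!
Computations with the coordinates of a small Ree group: the subgroups `Z ≤ W ≤ U`, generation of `U` (`U_le`),
two-generation, perfectness.
-/

set_option autoImplicit false

namespace Cfsg.Agent.Ree.RC

open Subgroup _root_.Cfsg.Agent.Classical
open scoped MatrixGroups

variable {K G : Type*} [Field K] [Group G] (R : RC K G)

local notation "q" => Nat.card K

@[simp] theorem w_zero : R.w 0 0 0 = 1 := by simpa using R.w_mul 0 0 0 0 0 0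

theorem w_mem (t u v : K) : R.w t u v ∈ R.U := R.mem_U.2 ⟨t, u, v, rfl⟩

theorem w_mul_W (t u v u' v' : K) : R.w t u v * R.w 0 u' v' = R.w t (u + u') (v + v') := by simp [R.w_mul]

theorem W_mul_w (u v t u' v' : K) : R.w 0 u v * R.w t u' v' = R.w t (u + u') (v + v' - t * u) := by simp [R.w_mul]

theorem w_inv (t u v : K) : (R.w t u v)⁻¹ = R.w (-t) (-u - R.ψ t * t) (-v - t * u - 2 * R.ψ t * t ^ 2) :=
  inv_eq_of_mul_eq_one_right (by rw [R.w_mul, ← R.w_zero]; congr 1 <;> simp <;> ring)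

theorem W_inv (u v : K) : (R.w 0 u v)⁻¹ = R.w 0 (-u) (-v) := by simp [R.w_inv]

theorem conj_W (t a b u v : K) : R.w t a b * R.w 0 u v * (R.w t a b)⁻¹ = R.w 0 u (v + t * u) := by
  rw [mul_inv_eq_iff_eq_mul, w_mul_W, W_mul_w]; congr 1 <;> ring

theorem w_eq_one {t u v : K} : R.w t u v = 1 ↔ t = 0 ∧ u = 0 ∧ v = 0 :=
  ⟨fun h => R.w_inj (h.trans R.w_zero.symm), by rintro ⟨rfl, rfl, rfl⟩; exact R.w_zero⟩

theorem w_eq_iff {t u v t' u' v' : K} : R.w t u v = R.w t' u' v' ↔ t = t' ∧ u = u' ∧ v = v' :=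
  ⟨R.w_inj, by rintro ⟨rfl, rfl, rfl⟩; rfl⟩

theorem z_w (t u v : K) : R.z * R.w t u v * R.z⁻¹ = R.w (-t) u (-v) := by
  rw [RD.z, R.h_w]; simp [neg_div]

/-- The homomorphism onto the derived group of `U`. -/
def ι : Multiplicative (K × K) →* G :=
  MonoidHom.mk' (fun p => R.w 0 p.toAdd.1 p.toAdd.2) fun _ _ => (R.w_mul_W ..).symm

/-- The homomorphism onto the centre of `U`. -/
def ζ : Multiplicative K →* G := MonoidHom.mk' (fun p => R.w 0 0 p.toAdd) fun _ _ => by simp [R.w_mul_W]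

/-- The elements of order at most three in `U`. -/
def W : Subgroup G := R.ι.range

/-- The centre of `U`. -/
def Z : Subgroup G := R.ζ.range

variable {R}

theorem mem_W {g : G} : g ∈ R.W ↔ ∃ u v, g = R.w 0 u v :=
  ⟨by rintro ⟨p, rfl⟩; exact ⟨_, _, rfl⟩, by rintro ⟨u, v, rfl⟩; exact ⟨.ofAdd (u, v), rfl⟩⟩

theorem mem_Z {g : G} : g ∈ R.Z ↔ ∃ v, g = R.w 0 0 v :=
  ⟨by rintro ⟨p, rfl⟩; exact ⟨_, rfl⟩, by rintro ⟨v, rfl⟩; exact ⟨.ofAdd v, rfl⟩⟩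

variable (R)

theorem w_mem_W (u v : K) : R.w 0 u v ∈ R.W := mem_W.2 ⟨u, v, rfl⟩

theorem w_mem_Z (v : K) : R.w 0 0 v ∈ R.Z := mem_Z.2 ⟨v, rfl⟩

theorem Z_le_W : R.Z ≤ R.W := fun _ h => by obtain ⟨v, rfl⟩ := mem_Z.1 h; exact R.w_mem_W ..

theorem W_le_U : R.W ≤ R.U := fun _ h => by obtain ⟨u, v, rfl⟩ := mem_W.1 h; exact R.w_mem _ _ _

theorem ψ_ne_zero (y : Kˣ) : R.ψ y ≠ 0 := by simp

theorem eq_one_of_τ {y : K} (hy : y ≠ 0) (h : y ^ 2 / R.ψ y = 1) : y = 1 := by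
  rw [div_eq_one_iff_eq (by simpa)] at h
  have := congrArg R.ψ h
  rw [map_pow, ← h, h, R.ψ_ψ, ← h, ← pow_mul] at this
  exact (mul_eq_left₀ (pow_ne_zero 3 hy)).1 ((pow_succ y 3).symm.trans this)

theorem sq_eq (b : K) (hb : b ≠ 0) : R.ψ (R.ψ b * b) / (R.ψ b * b) = b ^ 2 := by
  have : R.ψ b ≠ 0 := by simpa
  rw [map_mul, R.ψ_ψ]; field_simp

variable [Finite K]

theorem exists_τ {c : K} (hc : c ≠ 0) : ∃ y : Kˣ, y ^ 2 / R.ψ y = c := by
  let f : Kˣ →* Kˣ := powMonoidHom 2 / Units.map (R.ψ : K →* K)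
  have : Function.Injective f := (injective_iff_map_eq_one f).2 fun y h =>
    Units.ext (R.eq_one_of_τ y.ne_zero (by simpa [f] using congrArg Units.val h))
  obtain ⟨y, hy⟩ := Finite.surjective_of_injective this (Units.mk0 c hc)
  exact ⟨y, by simpa [f] using congrArg Units.val hy⟩

theorem exists_υ {x : K} (hx : x ≠ 0) {u : K} (hu : u ≠ 0) : ∃ y : Kˣ, R.ψ y / y * x = u ∨ R.ψ y / y * x = -u := by
  obtain ⟨b, hb⟩ := R.sq_or (Units.mk0 (u / x) (div_ne_zero hu hx))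
  refine ⟨Units.mk0 _ (mul_ne_zero (R.ψ_ne_zero b) b.ne_zero), ?_⟩
  rw [Units.val_mk0, R.sq_eq _ b.ne_zero]
  refine hb.imp (fun h => ?_) fun h => ?_ <;> have := congrArg Units.val h <;> simp [div_eq_iff hx] at this <;> simp [this]

theorem exists_ψ_ne (hm : 1 ≤ R.m) : ∃ t, R.ψ t ≠ t := by
  obtain ⟨a, ha⟩ := R.exists_sq_ne_one hm
  by_contra! h
  have := R.ψ_ψ a
  rw [h, h, pow_succ, right_eq_mul₀ a.ne_zero] at this
  exact ha (Units.ext (by simpa using this))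

variable {M : Subgroup G} (hH : ∀ y, ∀ g ∈ M, R.h y * g * (R.h y)⁻¹ ∈ M)
include hH

omit [Finite K] in
theorem Z_le {v : K} (hv : v ≠ 0) (h : R.w 0 0 v ∈ M) : R.Z ≤ M := fun g hg => by
  obtain ⟨v', rfl⟩ := mem_Z.1 hg
  by_cases h0 : v' = 0
  · simp [h0]
  simpa [R.h_w, hv] using hH (Units.mk0 (v' / v) (div_ne_zero h0 hv)) _ h

theorem W_le (hZ : R.Z ≤ M) {u v : K} (hu : u ≠ 0) (h : R.w 0 u v ∈ M) : R.W ≤ M := fun g hg => by
  obtain ⟨u', v', rfl⟩ := mem_W.1 hg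
  by_cases h0 : u' = 0
  · rw [h0]; exact hZ (R.w_mem_Z _)
  obtain ⟨y, hy⟩ := R.exists_υ hu h0
  have := hH y _ h
  rw [R.h_w, mul_zero] at this
  rcases hy with hy | hy <;> rw [hy] at this
  · simpa [w_mul_W] using mul_mem this (hZ (R.w_mem_Z (v' - y * v)))
  · simpa [w_mul_W, W_inv] using mul_mem (inv_mem this) (hZ (R.w_mem_Z (y * v + v')))

theorem exists_w_mem {t u v : K} (ht : t ≠ 0) (h : R.w t u v ∈ M) (t' : K) : ∃ u' v', R.w t' u' v' ∈ M := by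
  by_cases h0 : t' = 0
  · exact ⟨0, 0, by simp [h0]⟩
  obtain ⟨y, hy⟩ := R.exists_τ (div_ne_zero h0 ht)
  exact ⟨_, _, by simpa [R.h_w, hy, ht] using hH y _ h⟩

theorem U_le (hm : 1 ≤ R.m) {t u v : K} (ht : t ≠ 0) (h : R.w t u v ∈ M) : R.U ≤ M := fun g hg => by
  obtain ⟨s, hs⟩ := R.exists_ψ_ne hm
  obtain ⟨a, b, h1⟩ := R.exists_w_mem hH ht h s
  obtain ⟨c, d, h2⟩ := R.exists_w_mem hH ht h 1
  obtain ⟨y, h3⟩ : ∃ y, R.w s a b * R.w 1 c d = R.w 1 c d * R.w s a b * R.w 0 (R.ψ s - s) y :=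
    ⟨_ - _, by rw [R.w_mul, R.w_mul, w_mul_W, add_sub_cancel, map_one]; congr 1 <;> ring⟩
  have h4 : R.w 0 (R.ψ s - s) y ∈ M := by
    rw [← mul_mem_cancel_left (mul_mem h2 h1), ← h3]; exact mul_mem h1 h2
  have h5 := mul_mem (mul_mem (mul_mem h2 h4) (inv_mem h2)) (inv_mem h4)
  rw [conj_W, W_inv, w_mul_W, add_neg_cancel, one_mul, add_neg_cancel_comm] at h5
  have h6 := R.W_le hH (R.Z_le hH (sub_ne_zero.2 hs) h5) (sub_ne_zero.2 hs) h4
  obtain ⟨t, u, v, rfl⟩ := R.mem_U.1 hg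
  obtain ⟨a, b, h7⟩ := R.exists_w_mem hH ht h t
  simpa [w_mul_W] using mul_mem h7 (h6 (R.w_mem_W (u - a) (v - b)))

omit hH

theorem eq_top_of (hU : R.U ≤ M) (hn : R.n ∈ M) : M = ⊤ :=
  R.gen M hU fun _ hu => mul_mem (mul_mem hn (hU hu)) (inv_mem hn)

theorem exists_two_gen (hm : 1 ≤ R.m) : ∃ a b : G, closure {a, b} = ⊤ := by
  obtain ⟨y, hy⟩ := IsCyclic.exists_generator (α := Kˣ)
  refine ⟨R.h y, R.w 1 0 0 * R.n, ?_⟩
  have h1 : ∀ a, R.h a ∈ closure {R.h y, R.w 1 0 0 * R.n} := fun a => by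
    obtain ⟨k, rfl⟩ := hy a
    rw [map_zpow]; exact zpow_mem (subset_closure (by simp)) _
  have h2 : R.w 1 0 0 * R.n ∈ closure {R.h y, R.w 1 0 0 * R.n} := subset_closure (by simp)
  have h3 := mul_mem (h1 (-1)) (mul_mem (mul_mem h2 (h1 (-1))) (inv_mem h2))
  rw [show R.w 1 0 0 * R.n * R.h (-1) * (R.w 1 0 0 * R.n)⁻¹ = R.w 1 0 0 * (R.n * R.h (-1) * R.n⁻¹) * (R.w 1 0 0)⁻¹ by group,
    R.n_h, ← mul_assoc, ← mul_assoc, show R.h (-1) = R.z from rfl, z_w, w_inv, R.w_mul] at h3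
  have h4 := R.U_le (fun a g hg => mul_mem (mul_mem (h1 a) hg) (inv_mem (h1 a))) hm
    (fun e => R.two_ne (by linear_combination -e)) h3
  exact R.eq_top_of h4 ((mul_mem_cancel_left (h4 (R.w_mem _ _ _))).1 h2)

theorem eq_top_of_normal (hm : 1 ≤ R.m) [hM : M.Normal] {t u v : K} (ht : t ≠ 0) (h : R.w t u v ∈ M) : M = ⊤ := by
  have h1 := R.U_le (fun a g hg => hM.conj_mem g hg _) hm ht h
  exact R.gen M h1 fun _ hu => hM.conj_mem _ (h1 hu) _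

theorem perfect (hm : 1 ≤ R.m) : commutator G = ⊤ := by
  have := commutator_mem_commutator (mem_top R.z) (mem_top (R.w 1 0 0))
  rw [commutatorElement_def, z_w, w_inv, R.w_mul] at this
  exact R.eq_top_of_normal hm (fun e => R.two_ne (by linear_combination -e)) this

end Cfsg.Agent.Ree.RC
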